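/-
Matrices whose class square contains all non-scalar matrices of the right determinant.
-/
import Cfsg.Agent.S2522
import Cfsg.Agent.Lib.SLn.Steinberg3

set_option autoImplicit false

namespace Cfsg.Agent.Gauss

open Matrix Cfsg.Agent.SLn

variable {F : Type*} [Field F] {n : ℕ}

theorem isConj_of_det {A B P : Matrix (Fin n) (Fin n) F} (h : P.det ≠ 0) (e : A * P = P * B) : IsConj B A :=
  ⟨GeneralLinearGroup.mkOfDetNeZero P h, e.symm⟩

theorem det_of_isConj {A B : Matrix (Fin n) (Fin n) F} (h : IsConj A B) : A.det = B.det := by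
  obtain ⟨c, e⟩ := h
  have := congrArg det e.eq
  rw [det_mul, det_mul, mul_comm] at this
  exact mul_right_cancel₀ (isUnit_iff_ne_zero.mp ((isUnit_iff_isUnit_det _).mp c.isUnit)) this

theorem isConj_sub {A B : Matrix (Fin n) (Fin n) F} (h : IsConj A B) (b : F) : IsConj (A - b • 1) (B - b • 1) := by
  obtain ⟨c, e⟩ := h
  exact ⟨c, by simp [SemiconjBy, mul_sub, sub_mul, e.eq]⟩

theorem isConj_SL (k : SpecialLinearGroup (Fin n) F) (A : Matrix (Fin n) (Fin n) F) : IsConj A (k.1 * A * (k⁻¹).1) :=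
  isConj_of_det (P := k.1) (by simp) (by rw [mul_assoc, coe_inv_mul, mul_one])

theorem isConj_bord {A B : Matrix (Fin n) (Fin n) F} (h : IsConj A B) (b : F) :
    IsConj (bord b 0 0 A) (bord b 0 0 B) := by
  obtain ⟨c, e⟩ := h
  refine isConj_of_det (P := bord 1 0 0 c.1) ?_ (by simp [bord_mul, e.eq])
  rw [det_bord_col, one_mul]
  exact isUnit_iff_ne_zero.mp ((isUnit_iff_isUnit_det _).mp c.isUnit)

theorem isConj_col {A : Matrix (Fin n) (Fin n) F} {b : F} (h : (A - b • 1).det ≠ 0) (s : Fin n → F) :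
    IsConj (bord b 0 0 A) (bord b 0 s A) := by
  obtain ⟨w, hw⟩ := exists_mulVec_eq_of_det h (-s)
  refine isConj_of_det (P := bord 1 0 w 1) (by simp [det_bord_row]) ?_
  rw [sub_mulVec, smul_mulVec, one_mulVec] at hw
  simp [bord_mul, show s + A *ᵥ w = b • w by rw [sub_eq_iff_eq_add.mp hw]; abel]

theorem isConj_row {A : Matrix (Fin n) (Fin n) F} {b : F} (h : (A - b • 1).det ≠ 0) (r : Fin n → F) :
    IsConj (bord b 0 0 A) (bord b r 0 A) := by
  obtain ⟨w, hw⟩ := exists_mulVec_eq_of_det (det_transpose (A - b • 1) ▸ h) (-r)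
  refine (isConj_of_det (P := bord 1 w 0 1) (by simp [det_bord_col]) ?_).symm
  rw [mulVec_transpose, vecMul_sub, vecMul_smul, vecMul_one] at hw
  simp [bord_mul, sub_eq_iff_eq_add.mp hw]

theorem isConj_swap (a b : F) (A : Matrix (Fin n) (Fin n) F) :
    IsConj (bord a 0 0 (bord b 0 0 A)) (bord b 0 0 (bord a 0 0 A)) := by
  have h : ∀ x : F, ∀ B, bord x 0 0 B *ᵥ (Fin.cons 1 0 : Fin (n + 1) → F) = x • Fin.cons 1 0 ∧
      (Fin.cons 1 0 : Fin (n + 1) → F) ᵥ* bord x 0 0 B = x • Fin.cons 1 0 := fun x B => by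
    rw [bord_mulVec, vecMul_bord]
    constructor <;> ext i <;> refine Fin.cases ?_ (fun i => ?_) i <;> simp
  have h2 : vecMulVec (Fin.cons 1 0 : Fin (n + 1) → F) (Fin.cons 1 0 : Fin (n + 1) → F) = bord 1 0 0 0 := by
    refine bord_ext ?_ ?_ ?_ ?_ <;> simp [vecMulVec_apply]
  refine isConj_of_det (P := bord 0 (Fin.cons 1 0) (Fin.cons 1 0) (bord 0 0 0 1)) ?_ ?_
  · refine det_ne_zero_of_right_inverse (B := bord 0 (Fin.cons 1 0) (Fin.cons 1 0) (bord 0 0 0 1)) ?_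
    rw [bord_mul, (h _ _).1, (h _ _).2, h2, bord_mul, ← bord_one, ← bord_one]
    congr 1
    · simp [dotProduct, Fin.sum_univ_succ]
    · simp
    · simp
    · refine bord_ext ?_ ?_ ?_ ?_ <;> simp
  · simp [bord_mul, h]

theorem exists_SL_of_isConj {A : Matrix (Fin n) (Fin n) F} {b : F} {B : Matrix (Fin (n + 1)) (Fin (n + 1)) F}
    (h : IsConj (bord b 0 0 A) B) :
    ∃ k : SpecialLinearGroup (Fin (n + 1)) F, B = k.1 * bord b 0 0 A * (k⁻¹).1 := by
  obtain ⟨c, e⟩ := h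
  have h0 : c.1.det ≠ 0 := isUnit_iff_ne_zero.mp ((isUnit_iff_isUnit_det _).mp c.isUnit)
  let k : SpecialLinearGroup (Fin (n + 1)) F := ⟨c.1 * bord c.1.det⁻¹ 0 0 1, by simp [det_bord_col, h0]⟩
  refine ⟨k, ?_⟩
  have : k.1 * bord b 0 0 A = B * k.1 := by
    change c.1 * _ * _ = B * (c.1 * _)
    rw [← mul_assoc, ← e.eq, mul_assoc, mul_assoc]
    simp [bord_mul, mul_comm]
  rw [this, mul_assoc, coe_mul_inv, mul_one]

/-- Every non-scalar matrix of the right determinant is a product of two conjugates of `X`. -/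
def Cov (X : Matrix (Fin n) (Fin n) F) : Prop := ∀ M : Matrix (Fin n) (Fin n) F, M.det = X.det ^ 2 →
  (2 ≤ n → ∀ c : F, M ≠ c • 1) → ∃ A B, IsConj X A ∧ IsConj X B ∧ M = A * B

theorem Cov.of_isConj {X Y : Matrix (Fin n) (Fin n) F} (h : Cov X) (e : IsConj X Y) : Cov Y := fun M h1 h2 =>
  let ⟨A, B, a, b, c⟩ := h M (det_of_isConj e ▸ h1) h2
  ⟨A, B, e.symm.trans a, e.symm.trans b, c⟩

theorem prod_conj {X M A B : Matrix (Fin n) (Fin n) F} (k : SpecialLinearGroup (Fin n) F) (a : IsConj X A)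
    (b : IsConj X B) (e : M = k.1 * (A * B) * (k⁻¹).1) : ∃ A B, IsConj X A ∧ IsConj X B ∧ M = A * B :=
  ⟨_, _, a.trans (isConj_SL k A), b.trans (isConj_SL k B), by
    rw [e]; simp only [mul_assoc]; rw [← mul_assoc (k⁻¹).1, coe_inv_mul, one_mul]⟩

theorem exists_corner (A : Matrix (Fin (n + 1)) (Fin (n + 1)) F) {c₀ : F} (hc₀ : c₀ ≠ 0) (hA0 : A.det ≠ 0)
    (h0 : n = 0 → A.det = c₀) (hA : 2 ≤ n + 1 → ∀ c : F, A ≠ c • 1) :
    ∃ k : SpecialLinearGroup (Fin (n + 1)) F, ((k⁻¹).1 * A * k.1) 0 0 = c₀ ∧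
      (2 ≤ n → ∀ c : F, schur ((k⁻¹).1 * A * k.1) ≠ c • 1) := by
  rcases Nat.eq_zero_or_pos n with rfl | hn
  · exact ⟨1, by simpa using h0 rfl, by simp⟩
  obtain ⟨v, hv⟩ := exists_not_eigen (hA (by omega))
  have hv0 : v ≠ 0 := by rintro rfl; exact hv 0 (by simp)
  have hvw : ∀ c : F, A *ᵥ v - c₀ • v ≠ c • v := fun c e => hv (c + c₀) (by rw [add_smul, ← e]; abel)
  obtain ⟨φ, ⟨p1, p2⟩, hφ⟩ : ∃ φ ∈ pairSet v (A *ᵥ v - c₀ • v), 2 ≤ n →
      ¬ ∃ c : F, ∀ u, φ ⬝ᵥ u = 0 → A *ᵥ u - (c₀⁻¹ * φ ⬝ᵥ (A *ᵥ u)) • A *ᵥ v = c • u := by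
    by_cases h2 : 2 ≤ n
    · obtain ⟨φ, h, h'⟩ := (gen_not_scalar (by simpa using h2) hA0 hv hc₀).exists
      exact ⟨φ, h, fun _ => h'⟩
    · obtain ⟨φ, h⟩ := pairSet_nonempty hv0 hvw
      exact ⟨φ, h, fun h' => absurd h' h2⟩
  have p3 : φ ⬝ᵥ (A *ᵥ v) = c₀ := by
    rwa [dotProduct_sub, dotProduct_smul, p1, smul_eq_mul, mul_one, sub_eq_zero] at p2
  obtain ⟨k, k1, k2⟩ := exists_SL_pair hn p1
  exact ⟨k, by rw [pair_corner k1 k2, p3], fun h2 => schur_not_scalar k1 k2 hc₀ p3 (hφ h2)⟩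

theorem Cov.bord {X : Matrix (Fin n) (Fin n) F} (h : Cov X) (h0 : X.det ≠ 0) {b : F} (hb : b ≠ 0)
    (h1 : (X - b • 1).det ≠ 0) : Cov (bord b 0 0 X) := fun M hM h2 => by
  rw [det_bord_col] at hM
  obtain ⟨k, k1, k2⟩ := exists_corner M (mul_ne_zero hb hb) (by simp [hM, hb, h0])
    (by rintro rfl; rw [hM]; simp [sq]) h2
  obtain ⟨A, B, a, b', e⟩ := h _ (by
    have := det_eq_schur (A := (k⁻¹).1 * M * k.1) (by rw [k1]; simp [hb])
    rw [det_conj_SL, hM, k1] at this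
    exact mul_left_cancel₀ (mul_ne_zero hb hb) (by rw [← this]; ring)) k2
  refine prod_conj k ((isConj_bord a b).trans (isConj_col (det_of_isConj (isConj_sub a b) ▸ h1)
    (b⁻¹ • fun i => ((k⁻¹).1 * M * k.1) i.succ 0))) ((isConj_bord b' b).trans
      (isConj_row (det_of_isConj (isConj_sub b' b) ▸ h1) (b⁻¹ • fun i => ((k⁻¹).1 * M * k.1) 0 i.succ))) ?_
  have e2 := eq_bord_mul_bord hb hb k1
  rw [e, bord_mul] at e2
  rw [bord_mul]
  simp only [zero_vecMul, mulVec_zero, one_mul] at e2 ⊢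
  rw [← e2]
  simp only [← mul_assoc]
  rw [coe_mul_inv, one_mul, mul_assoc, coe_mul_inv, mul_one]

/-- Upper unitriangular matrices. -/
def UT (A : Matrix (Fin n) (Fin n) F) : Prop := (∀ i j, j < i → A i j = 0) ∧ ∀ i, A i i = 1

theorem UT.one : UT (1 : Matrix (Fin n) (Fin n) F) := ⟨fun _ _ h => one_apply_ne h.ne', fun _ => one_apply_eq _⟩

theorem mul_diag {A B : Matrix (Fin n) (Fin n) F} (a : ∀ i j, j < i → A i j = 0) (b : ∀ i j, j < i → B i j = 0)
    (i : Fin n) : (A * B) i i = A i i * B i i := by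
  rw [mul_apply, Finset.sum_eq_single i (fun c _ hc => ?_) (by simp)]
  rcases lt_or_gt_of_ne hc with h | h
  · rw [a i c h, zero_mul]
  · rw [b c i h, mul_zero]

theorem UT.mul {A B : Matrix (Fin n) (Fin n) F} (a : UT A) (b : UT B) : UT (A * B) :=
  ⟨BlockTriangular.mul (b := id) a.1 b.1, fun i => by rw [mul_diag a.1 b.1, a.2, b.2, one_mul]⟩

theorem UT.mul_sup {A B : Matrix (Fin n) (Fin n) F} (a : UT A) (b : UT B) {i j : Fin n} (h : j.val = i.val + 1) :
    (A * B) i j = A i j + B i j := by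
  rw [mul_apply, Finset.sum_eq_add i j (by intro e; subst e; omega) (fun c _ hc => ?_) (by simp) (by simp), a.2, b.2]
  · ring
  rcases lt_or_gt_of_ne hc.1 with h1 | h1
  · rw [a.1 i c h1, zero_mul]
  · rw [b.1 c j (lt_of_le_of_ne (by rw [Fin.le_def]; rw [Fin.lt_def] at h1; omega) hc.2.symm), mul_zero]

theorem UT.det_sub {A : Matrix (Fin n) (Fin n) F} (a : UT A) (b : F) : (A - b • 1).det = (1 - b) ^ n := by
  rw [det_of_isUpperTriangular (fun i j h => by simp [a.1 i j h, one_apply_ne (show i ≠ j from ne_of_gt h)])]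
  simp [a.2]

theorem UT.det {A : Matrix (Fin n) (Fin n) F} (a : UT A) : A.det = 1 := by simpa using a.det_sub 0

theorem UT.inv {A : SpecialLinearGroup (Fin n) F} (a : UT A.1) : UT (A⁻¹).1 := by
  have h : ∀ i j, j < i → (A⁻¹).1 i j = 0 := by
    have := A.1.invertibleOfIsUnitDet (by simp)
    rw [← inv_eq_right_inv (coe_mul_inv A)]
    exact blockTriangular_inv_of_blockTriangular (b := id) a.1
  exact ⟨h, fun i => by
    have := mul_diag a.1 h i
    rwa [coe_mul_inv, one_apply_eq, a.2, one_mul, eq_comm] at this⟩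

theorem UT.xSL {i j : Fin n} (h : i < j) (t : F) : UT (xSL i j t).1 := by
  rw [coe_xSL h.ne]
  refine ⟨fun a b e => ?_, fun a => ?_⟩
  · rw [transvection, Matrix.add_apply, one_apply_ne e.ne', single_apply_of_ne, add_zero]
    rintro ⟨rfl, rfl⟩; exact lt_asymm h e
  · rw [transvection, Matrix.add_apply, one_apply_eq, single_apply_of_ne, add_zero]
    rintro ⟨rfl, rfl⟩; exact h.ne rfl

theorem xSL_transpose (i j : Fin n) (t : F) : (xSL i j t).1ᵀ = (xSL j i t).1 := by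
  by_cases h : i = j
  · simp [xSL, h]
  · simp [coe_xSL h, coe_xSL (Ne.symm h), transvection]

theorem UT.pow_card [Finite F] {A : Matrix (Fin n) (Fin n) F} (a : UT A) : A ^ Nat.card F ^ n = 1 := by
  have := Fintype.ofFinite F
  obtain ⟨p, hp, k, hp', e⟩ := FiniteField.card' F
  have := Fact.mk hp'
  obtain ⟨N, rfl⟩ : ∃ N, A = N + 1 := ⟨A - 1, by simp⟩
  have hN : N ^ n = 0 := by
    ext i j
    refine pow_apply_eq_zero_of_strictUpper (fun i j h => ?_) _ _ _ (by omega)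
    rcases h.eq_or_lt with e | e
    · rw [Fin.ext e]; simpa using a.2 i
    · simpa [one_apply_ne (Fin.ne_of_gt e)] using a.1 i j e
  rcases Nat.eq_zero_or_pos n with rfl | hn
  · exact Subsingleton.elim _ _
  have : Nonempty (Fin n) := ⟨⟨0, hn⟩⟩
  rw [Nat.card_eq_fintype_card, e, ← pow_mul, add_pow_char_pow_of_commute p _ (Commute.one_right N), one_pow,
    pow_eq_zero_of_le _ hN, zero_add]
  exact (Nat.le_mul_of_pos_left n k.2).trans (Nat.lt_pow_self hp'.one_lt).le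

/-- Regular upper unitriangular matrices. -/
def RegU (A : Matrix (Fin n) (Fin n) F) : Prop := UT A ∧ ∀ i j : Fin n, j.val = i.val + 1 → A i j ≠ 0

variable (n F) in
/-- The Jordan block. -/
def Jm : Matrix (Fin n) (Fin n) F := of fun i j => if i = j then 1 else if j.val = i.val + 1 then 1 else 0

theorem regU_Jm : RegU (Jm F n) :=
  ⟨⟨fun i j h => by simp [Jm, h.ne', show j.val ≠ i.val + 1 by rw [Fin.lt_def] at h; omega], by simp [Jm]⟩,
    fun i j h => by simp [Jm, h]⟩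

theorem RegU.isConj {A : Matrix (Fin n) (Fin n) F} (a : RegU A) : IsConj (Jm F n) A := by
  cases n with
  | zero => rw [Subsingleton.elim A]
  | succ n =>
    obtain ⟨P, h1, h2⟩ := S2522.upper_conj (J := Jm F _) (fun _ _ => rfl) a.1.1 a.1.2 a.2
    exact isConj_of_det h1 h2

theorem RegU.isConj' {A : Matrix (Fin n) (Fin n) F} (a : RegU Aᵀ) : IsConj (Jm F n) A := by
  cases n with
  | zero => rw [Subsingleton.elim A]
  | succ n =>
    obtain ⟨P, h1, h2⟩ := S2522.lower_conj (J := Jm F _) (L := A) (fun _ _ => rfl) (fun i j => a.1.1 j i) a.1.2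
      fun i j => a.2 j i
    exact isConj_of_det h1 h2

theorem RegU.inv {A : SpecialLinearGroup (Fin n) F} (a : RegU A.1) : RegU (A⁻¹).1 :=
  ⟨a.1.inv, fun i j h e => a.2 i j h (by
    have := a.1.mul_sup a.1.inv h
    rw [coe_mul_inv, e, add_zero] at this
    rw [← this, one_apply_ne (by intro e; subst e; omega)])⟩

theorem regU_two {t : F} (ht : t ≠ 0) : RegU !![1, t; 0, 1] :=
  ⟨⟨fun i j h => by fin_cases i <;> fin_cases j <;> simp at h ⊢, fun i => by fin_cases i <;> rfl⟩,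
    fun i j h => by fin_cases i <;> fin_cases j <;> simp at h ⊢; exact ht⟩

theorem cov_Jm (hK : 4 ≤ Cardinal.mk F) : Cov (Jm F n) := fun M h1 h2 => by
  rw [regU_Jm.1.det, one_pow] at h1
  rcases n with _ | _ | _ | n
  · exact ⟨_, _, .refl _, .refl _, Subsingleton.elim _ _⟩
  · refine ⟨_, _, .refl _, .refl _, ?_⟩
    ext i j
    simpa [Jm, Fin.eq_zero i, Fin.eq_zero j, mul_apply] using h1
  · obtain ⟨g, L, U, h⟩ := sourour M (fun _ => 1) (fun _ => 1) (by simp) (by simp) (by simpa using h1) h2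
    obtain ⟨a, a0, a1, -⟩ := four_of_cardinal hK 0 1 1
    have a2 := sub_ne_zero.mpr a1.symm
    have hL : L = !![1, L 1 0; 0, 1]ᵀ := by
      ext i j; fin_cases i <;> fin_cases j <;> simp [h.dL, h.lower]
    have hU : U = !![1, U 0 1; 0, 1] := by
      ext i j; fin_cases i <;> fin_cases j <;> simp [h.dU, h.upper]
    have e := h.eq
    rw [hL, hU] at e
    by_cases l0 : L 1 0 = 0 <;> by_cases u0 : U 0 1 = 0
    · refine absurd ?_ (h2 le_rfl 1)
      rw [e, l0, u0, ← one_fin_two, transpose_one, one_mul, mul_one, coe_mul_inv, one_smul]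
    · refine prod_conj g (regU_two (mul_ne_zero a0 u0)).isConj (regU_two (mul_ne_zero a2 u0)).isConj (e.trans ?_)
      congr 2
      ext i j; fin_cases i <;> fin_cases j <;> simp [l0, mul_apply]; ring
    · refine prod_conj g (A := !![1, a * L 1 0; 0, 1]ᵀ) (B := !![1, (1 - a) * L 1 0; 0, 1]ᵀ)
        (RegU.isConj' (regU_two (mul_ne_zero a0 l0))) (RegU.isConj' (regU_two (mul_ne_zero a2 l0))) (e.trans ?_)
      congr 2
      ext i j; fin_cases i <;> fin_cases j <;> simp [u0, mul_apply]; ring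
    · exact prod_conj g (RegU.isConj' (regU_two l0)) (regU_two u0).isConj e
  · obtain ⟨x, y, e⟩ := S2522.result hK (n + 3) (by omega)
      (GeneralLinearGroup.mkOfDetNeZero (Jm F _) (by simp [regU_Jm.1.det]))
      (GeneralLinearGroup.mkOfDetNeZero M (by simp [h1])) (fun _ _ => rfl) (fun ⟨c, e⟩ => h2 (by omega) c e) h1
    exact ⟨_, _, ⟨x, by simp [SemiconjBy]⟩, ⟨y, by simp [SemiconjBy]⟩, congrArg Units.val e⟩

theorem RegU.cov (hK : 4 ≤ Cardinal.mk F) {A : Matrix (Fin n) (Fin n) F} (a : RegU A) {b : F} (h0 : b ≠ 0)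
    (h1 : b ≠ 1) : Cov (bord b 0 0 A) :=
  ((cov_Jm hK).of_isConj a.isConj).bord (by simp [a.1.det]) h0 (by
    rw [a.1.det_sub]; exact pow_ne_zero _ (sub_ne_zero.mpr h1.symm))

end Cfsg.Agent.Gauss
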