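/-
Real classes whose square contains all non-central elements, from a Levi subgroup of linear type.
-/
import Cfsg.Agent.Lib.Gauss.Levi
import Cfsg.Agent.Lib.Gauss.Cov

set_option autoImplicit false
set_option backward.isDefEq.respectTransparency false

namespace Cfsg.Agent.Gauss

open Cfsg.Agent.Chev Cfsg.Agent.Chev.RSys Cfsg.Agent.Chev.PreRGD Cfsg.Agent.Chev.Fold Cfsg.Agent.SLn Matrix

section lin

variable {K : Type*} [Field K] {n : ℕ} {Γ : Type*} [Group Γ]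

theorem bord_diag (b : K) : (bord b 0 0 1 : Matrix (Fin (n + 1)) (Fin (n + 1)) K) = diagonal (Fin.cons b 1) := by
  refine bord_ext ?_ (fun j => ?_) (fun i => ?_) fun i j => ?_ <;>
    simp [diagonal_apply, one_apply, Fin.succ_ne_zero, (Fin.succ_ne_zero _).symm]

theorem bord_cancel {b : K} (hb : b ≠ 0) : (bord b⁻¹ 0 0 1 : Matrix (Fin (n + 1)) (Fin (n + 1)) K) * bord b 0 0 1 = 1 := by
  simp [bord_mul, hb, bord_one]

theorem bord_cancel' {b : K} (hb : b ≠ 0) : (bord b 0 0 1 : Matrix (Fin (n + 1)) (Fin (n + 1)) K) * bord b⁻¹ 0 0 1 = 1 := by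
  simp [bord_mul, hb, bord_one]

/-- Conjugation by `diag(b, 1, …, 1)`. -/
def cjB {b : K} (hb : b ≠ 0) : SpecialLinearGroup (Fin (n + 1)) K →* SpecialLinearGroup (Fin (n + 1)) K where
  toFun A := ⟨bord b 0 0 1 * A.1 * bord b⁻¹ 0 0 1, by simp [det_bord_col, hb]⟩
  map_one' := Subtype.ext (by simp [bord_cancel' hb])
  map_mul' A B := Subtype.ext (by
    simp only [Matrix.SpecialLinearGroup.coe_mul, mul_assoc]
    rw [← mul_assoc (bord b⁻¹ 0 0 1), bord_cancel hb, one_mul])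

theorem coe_cjB {b : K} (hb : b ≠ 0) (A : SpecialLinearGroup (Fin (n + 1)) K) :
    (cjB hb A).1 = bord b 0 0 1 * A.1 * bord b⁻¹ 0 0 1 := rfl

theorem cjB_xSL {b : K} (hb : b ≠ 0) {i j : Fin (n + 1)} (h : i ≠ j) (t : K) : cjB hb (xSL i j t) =
    xSL i j ((Fin.cons b 1 : Fin (n + 1) → K) i * t * ((Fin.cons b 1 : Fin (n + 1) → K) j)⁻¹) := by
  refine Subtype.ext ?_
  rw [coe_cjB, coe_xSL h, coe_xSL h, transvection, transvection, mul_add, add_mul, mul_one, bord_cancel' hb, bord_diag,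
    bord_diag]
  ext a c
  simp only [Matrix.add_apply, mul_diagonal, diagonal_mul, single_apply]
  split_ifs with e
  · obtain ⟨rfl, rfl⟩ := e
    congr 2
    refine Fin.cases ?_ (fun j => ?_) j <;> simp
  · simp

theorem cjB_bord {b : K} (hb : b ≠ 0) {A : SpecialLinearGroup (Fin (n + 1)) K} {a : K}
    {C : Matrix (Fin n) (Fin n) K} (h : A.1 = bord a 0 0 C) : cjB hb A = A :=
  Subtype.ext (by rw [coe_cjB, h]; simp [bord_mul, mul_right_comm b a, hb])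

/-- `oneSum` as a homomorphism. -/
def oneSumH : SpecialLinearGroup (Fin n) K →* SpecialLinearGroup (Fin (n + 1)) K where
  toFun := oneSum
  map_one' := Subtype.ext bord_one
  map_mul' A B := Subtype.ext (by simp [coe_oneSum, bord_mul])

theorem coe_oneSumH (A : SpecialLinearGroup (Fin n) K) : (oneSumH A).1 = bord 1 0 0 A.1 := rfl

theorem oneSumH_xSL {i j : Fin n} (h : i ≠ j) (t : K) : oneSumH (xSL i j t) = xSL i.succ j.succ t := by
  refine Subtype.ext ?_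
  rw [coe_oneSumH, coe_xSL h, coe_xSL ((Fin.succ_injective _).ne h)]
  refine bord_ext ?_ (fun j => ?_) (fun i => ?_) fun i j => ?_ <;>
    simp [transvection, single_apply, one_apply, Fin.succ_ne_zero, (Fin.succ_ne_zero _).symm]

theorem psl_class (hK : 4 ≤ Cardinal.mk K) {b : K} (h0 : b ≠ 0) (h2 : b ^ 2 ≠ 1) :
    ∃ x : SpecialLinearGroup (Fin (n + 2)) K, IsConj x x⁻¹ ∧ ∀ g ∉ Subgroup.center _, P2 x g := by
  have h1 : b ≠ 1 := by rintro rfl; simp at h2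
  let J : SpecialLinearGroup (Fin n) K := ⟨Jm K n, regU_Jm.1.det⟩
  let x : SpecialLinearGroup (Fin (n + 2)) K := ⟨bord b 0 0 (bord b⁻¹ 0 0 J.1), by simp [det_bord_col, h0]⟩
  refine ⟨x, ?_, fun g hg => ?_⟩
  · have e : (x⁻¹).1 = bord b⁻¹ 0 0 (bord b 0 0 (J⁻¹).1) := by
      rw [← inv_eq_right_inv (coe_mul_inv x)]
      refine inv_eq_right_inv ?_
      simp only [x, bord_mul, coe_mul_inv]
      simp [h0, bord_one]
    obtain ⟨k, hk⟩ := exists_SL_of_isConj ((isConj_swap b b⁻¹ J.1).trans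
      (isConj_bord (isConj_bord (RegU.inv (A := J) regU_Jm).isConj b) b⁻¹))
    exact isConj_iff.mpr ⟨k, Subtype.ext (e.trans hk).symm⟩
  have h3 : (bord b⁻¹ 0 0 J.1 - b • 1).det ≠ 0 := by
    rw [show bord b⁻¹ 0 0 J.1 - b • 1 = bord (b⁻¹ - b) 0 0 (J.1 - b • 1) by
      refine bord_ext ?_ (fun j => ?_) (fun i => ?_) fun i j => ?_ <;>
        simp [one_apply, Fin.succ_ne_zero, (Fin.succ_ne_zero _).symm], det_bord_col, regU_Jm.1.det_sub]
    exact mul_ne_zero (fun e => h2 (by rw [sq]; nth_rw 2 [← sub_eq_zero.mp e]; exact mul_inv_cancel₀ h0))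
      (pow_ne_zero _ (sub_ne_zero.mpr h1.symm))
  obtain ⟨A, B, a, c, e⟩ := ((regU_Jm.cov hK (inv_ne_zero h0) (inv_ne_one.mpr h1)).bord
    (by simp [det_bord_col, h0, regU_Jm.1.det]) h0 h3) g.1 (by rw [g.2]; simp [det_bord_col, h0, regU_Jm.1.det])
    fun _ c e => hg (Subgroup.mem_center_iff.mpr fun y => Subtype.ext (by simp [e]))
  obtain ⟨k, rfl⟩ := exists_SL_of_isConj a
  obtain ⟨k', rfl⟩ := exists_SL_of_isConj c
  exact ⟨k, k', Subtype.ext e⟩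

variable {ψ : SpecialLinearGroup (Fin (n + 1)) K →* Γ} {s : Γ} {b : K} (hb : b ≠ 0)

theorem conj_eq_cjB (h : ∀ i j, i ≠ j → ∀ t, s * ψ (xSL i j t) * s⁻¹ =
    ψ (xSL i j ((Fin.cons b 1 : Fin (n + 1) → K) i * t * ((Fin.cons b 1 : Fin (n + 1) → K) j)⁻¹)))
    (A : SpecialLinearGroup (Fin (n + 1)) K) : s * ψ A * s⁻¹ = ψ (cjB hb A) :=
  (eq_top_of_xSL_mem (H := ((MulAut.conj s).toMonoidHom.comp ψ).eqLocus (ψ.comp (cjB hb)))
    (fun i j e t => (h i j e t).trans (congrArg ψ (cjB_xSL hb e t).symm))).ge (Subgroup.mem_top A)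

variable (hs : ∀ A, s * ψ A * s⁻¹ = ψ (cjB hb A))
include hs

theorem commute_bord {A : SpecialLinearGroup (Fin (n + 1)) K} {a : K} {C : Matrix (Fin n) (Fin n) K}
    (h : A.1 = bord a 0 0 C) : Commute (ψ A) s := by
  have := hs A
  rw [cjB_bord hb h, mul_inv_eq_iff_eq_mul] at this
  exact this.symm

theorem block_prod (hK : 4 ≤ Cardinal.mk K) (hn : 1 ≤ n) (h2 : b ^ 2 ≠ 1) {U : SpecialLinearGroup (Fin n) K}
    (hU : RegU U.1) {Y X : SpecialLinearGroup (Fin (n + 1)) K} (hY : UT Y.1ᵀ) (hX : UT X.1) :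
    ∃ k k', (ψ Y)⁻¹ * (s * s) * ψ X =
      ψ k * (ψ (oneSumH U) * s) * (ψ k)⁻¹ * (ψ k' * (ψ (oneSumH U) * s) * (ψ k')⁻¹) := by
  obtain ⟨A, B, a, c, e⟩ := hU.cov hK hb (by rintro rfl; simp at h2)
    ((Y⁻¹).1 * (bord b 0 0 1 * (bord b 0 0 1 * X.1))) (by simp only [det_mul, det_bord_col, U.2, X.2, (Y⁻¹).2]; simp [sq])
    fun _ c e => h2 (by
      have e1 := congrArg (Y.1 * ·) e
      simp only [← mul_assoc, coe_mul_inv, one_mul, bord_diag, mul_smul_comm, mul_one, diagonal_mul_diagonal] at e1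
      have e2 : ∀ i, (Fin.cons b 1 : Fin (n + 1) → K) i * (Fin.cons b 1 : Fin (n + 1) → K) i = c := fun i => by
        simpa [hX.2, show Y.1 i i = 1 from hY.2 i] using congrFun₂ e1 i i
      have e3 := (e2 0).trans (e2 (Fin.succ ⟨0, hn⟩)).symm
      rwa [Fin.cons_succ, Fin.cons_zero, ← sq, Pi.one_apply, one_mul] at e3)
  obtain ⟨k, rfl⟩ := exists_SL_of_isConj a
  obtain ⟨k', rfl⟩ := exists_SL_of_isConj c
  have e1 : Y⁻¹ * cjB hb (cjB hb X) = k * oneSumH U * cjB hb (k⁻¹ * k' * oneSumH U) * cjB hb (cjB hb k'⁻¹) := by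
    refine Subtype.ext ?_
    rw [show bord b 0 0 U.1 = (oneSumH U).1 * bord b 0 0 1 by simp [coe_oneSumH, bord_mul]] at e
    have := congrArg (· * bord b⁻¹ 0 0 1 * bord b⁻¹ 0 0 1) e
    simp only [Matrix.SpecialLinearGroup.coe_mul, coe_cjB, mul_assoc] at this ⊢
    rw [this, ← mul_assoc (bord b⁻¹ 0 0 1) (bord b 0 0 1), bord_cancel hb, one_mul]
  refine ⟨k, k', ?_⟩
  have e2 := congrArg (fun g => ψ g * (s * s)) e1
  simp only [map_mul, map_inv, ← hs] at e2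
  simpa [mul_assoc] using e2

theorem exists_real {w : Γ} (hw : w * s * w⁻¹ = s⁻¹) (h : ∀ i j : Fin n, i ≠ j → ∃ c : K, c ≠ 0 ∧
      w * ψ (xSL i.succ j.succ 1) * w⁻¹ = ψ (xSL j.succ i.succ c)) :
    ∃ U : SpecialLinearGroup (Fin n) K, RegU U.1 ∧ IsConj (ψ (oneSumH U) * s) (ψ (oneSumH U) * s)⁻¹ := by
  have key : ∀ k : ℕ, ∃ U L : SpecialLinearGroup (Fin n) K, UT U.1 ∧ UT L.1ᵀ ∧ (∀ i j : Fin n, j.val = i.val + 1 →
      (U.1 i j ≠ 0 ↔ i.val < k) ∧ (L.1ᵀ i j ≠ 0 ↔ i.val < k)) ∧ w * ψ (oneSumH U) * w⁻¹ = ψ (oneSumH L) := fun k => by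
    induction k with
    | zero =>
      refine ⟨1, 1, .one, by simpa using UT.one, fun i j e => ?_, by simp⟩
      have : i ≠ j := by rintro rfl; omega
      simp [one_apply_ne this, one_apply_ne this.symm]
    | succ k ih =>
      obtain ⟨U, L, h1, h2, h3, h4⟩ := ih
      by_cases hk : k + 1 < n
      swap
      · exact ⟨U, L, h1, h2, fun i j e => by
          rw [show i.val < k + 1 ↔ i.val < k by have := j.2; omega]; exact h3 i j e, h4⟩
      obtain ⟨a, a', ha, ha'⟩ : ∃ a a' : Fin n, a.val = k ∧ a'.val = k + 1 := ⟨⟨k, by omega⟩, ⟨k + 1, hk⟩, rfl, rfl⟩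
      have hlt : a < a' := by rw [Fin.lt_def]; omega
      obtain ⟨c, c0, hc⟩ := h _ _ hlt.ne
      have e1 : (L * xSL a' a c).1ᵀ = (xSL a a' c).1 * L.1ᵀ := by
        rw [Matrix.SpecialLinearGroup.coe_mul, transpose_mul, xSL_transpose]
      refine ⟨U * xSL _ _ 1, L * xSL _ _ c, h1.mul (.xSL hlt 1), e1 ▸ (UT.xSL hlt c).mul h2, fun i j e => ?_, ?_⟩
      · have hij : i ≠ j := by rintro rfl; omega
        rw [e1, Matrix.SpecialLinearGroup.coe_mul, h1.mul_sup (.xSL hlt 1) e, (UT.xSL hlt c).mul_sup h2 e, coe_xSL hlt.ne,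
          coe_xSL hlt.ne]
        obtain ⟨h5, h6⟩ := h3 i j e
        simp only [transvection, Matrix.add_apply, one_apply_ne hij, single_apply, Fin.ext_iff, zero_add]
        split_ifs with h7
        · rw [not_not.mp (h5.not.mpr (by omega)), not_not.mp (h6.not.mpr (by omega))]
          simp [c0]; omega
        · rw [add_zero, zero_add, h5, h6]; omega
      · rw [map_mul, map_mul, map_mul, map_mul, oneSumH_xSL hlt.ne, oneSumH_xSL hlt.ne', ← hc, ← h4]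
        simp [mul_assoc]
  obtain ⟨U, L, h1, h2, h3, h4⟩ := key n
  have hU : RegU U.1 := ⟨h1, fun i j e => (h3 i j e).1.mpr i.2⟩
  obtain ⟨c, hc⟩ := (RegU.isConj' ⟨h2, fun i j e => (h3 i j e).2.mpr i.2⟩).symm.trans hU.inv.isConj
  have h0 : c.1.det ≠ 0 := isUnit_iff_ne_zero.mp ((isUnit_iff_isUnit_det _).mp c.isUnit)
  let k : SpecialLinearGroup (Fin (n + 1)) K := ⟨bord c.1.det⁻¹ 0 0 c.1, by simp [det_bord_col, h0]⟩
  have e1 : k * oneSumH L = oneSumH U⁻¹ * k := Subtype.ext (by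
    simp only [Matrix.SpecialLinearGroup.coe_mul, coe_oneSumH, bord_mul, k, hc.eq]; simp)
  refine ⟨U, hU, isConj_iff.mpr ⟨ψ k * w, ?_⟩⟩
  calc _ = ψ k * (w * ψ (oneSumH U) * w⁻¹) * (w * s * w⁻¹ * (ψ k)⁻¹) := by simp [mul_assoc]
    _ = _ := by
      rw [h4, hw, ← map_mul, e1, (commute_bord hb hs (A := k) rfl).inv_inv.symm.eq, (commute_bord hb hs
        (coe_oneSumH U)).eq]
      simp [mul_assoc]

theorem pow_block [Finite K] (hq : s ^ Nat.card K = s) {U : SpecialLinearGroup (Fin n) K} (hU : UT U.1) :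
    (ψ (oneSumH U) * s) ^ Nat.card K ^ n = s := by
  have h1 : ∀ k, s ^ Nat.card K ^ k = s := fun k => by
    induction k with
    | zero => simp
    | succ k ih => rw [pow_succ, pow_mul, ih, hq]
  rw [(commute_bord hb hs (coe_oneSumH U)).mul_pow, h1, ← map_pow, ← map_pow,
    show U ^ Nat.card K ^ n = 1 from Subtype.ext hU.pow_card, map_one, map_one, one_mul]

end lin

variable {ι I : Type*} [Fintype I] [DecidableEq I] {R : RSys ι I} {G : Type*} [Group G] {P : PreRGD R G}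
  [Fintype ι] [DecidableEq ι] {F : Fold P} {Γ : Type*} [Group Γ] {f : Γ →* G}

theorem eq_one_of_commute (nd : P.Nondeg) {S : Set ι} (hS : R.HalfSpace S) (hc : R.Closed S) {s u : G} (hs : s ∈ P.H)
    (h : ∀ r ∈ S, ∀ x ∈ P.X r, Commute x s → x = 1) (hu : u ∈ P.US S) (e : Commute u s) : u = 1 := by
  classical
  have hL : ∀ r, r ∈ (Finset.univ.filter (· ∈ S)).toList ↔ r ∈ S := by simp
  obtain ⟨g, h1, -, rfl⟩ := Nondeg.exists_prod_of_subset hS hc subset_rfl (Finset.nodup_toList _)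
    (fun r => (hL r).mpr) hu
  have := nd.prod_unique hS (Finset.nodup_toList _) (fun r => (hL r).mp) (fun r _ => P.H_conj_X s hs r _ (h1 r))
    (fun r _ => h1 r) (by
      have := map_list_prod (MulAut.conj s) ((Finset.univ.filter (· ∈ S)).toList.map g)
      rw [List.map_map, MulAut.conj_apply, ← e.eq, mul_inv_cancel_right] at this
      exact this.symm)
  refine List.prod_eq_one fun x hx => ?_
  obtain ⟨r, hr, rfl⟩ := List.mem_map.mp hx
  exact h r ((hL r).mp hr) _ (h1 r) (mul_inv_eq_iff_eq_mul.mp (this r hr)).symm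

variable (P) in
/-- The trivial folding. -/
def fold0 : Fold P := ⟨MonoidHom.id G, 1, 1, fun _ => rfl, fun _ _ => rfl, fun _ _ h => h, fun _ h => h, by simp⟩

theorem orb0 (i : I) : (fold0 P).orb i = {i} := Set.ext fun _ => Equiv.Perm.sameCycle_one.trans eq_comm

theorem s0 (i : I) : (fold0 P).s i = R.sref i := by
  rw [Fold.s, orb0]
  refine (eq_w0J (J := {i}) (sref_mem_WJ_iff.mpr (Set.mem_singleton i)) fun j hj => ?_).symm
  rw [Set.mem_singleton_iff.mp hj, sref_simple]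
  exact not_isPos_neg_simple i

theorem UL0 (i : I) : P.UL {i} = P.X (R.simple i) := by
  rw [← USub_singleton (X := P.X) (R.simple i)]
  refine congrArg (USub P.X) (Set.ext fun r => ⟨fun h => (inSub_singleton_iff.mp h.2).resolve_right ?_, ?_⟩)
  · rintro rfl; exact not_isPos_neg_simple _ h.1
  · rintro rfl; exact ⟨R.isPos_simple i, inSub_simple.mpr rfl⟩

theorem VL0 (i : I) : P.VL {i} = P.X (R.neg (R.simple i)) := by
  rw [← USub_singleton (X := P.X) (R.neg (R.simple i))]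
  refine congrArg (USub P.X) (Set.ext fun r => ⟨fun h => (inSub_singleton_iff.mp h.2).resolve_left ?_, ?_⟩)
  · rintro rfl; exact h.1 (R.isPos_simple _)
  · rintro rfl; exact ⟨not_isPos_neg_simple i, inSub_neg.mpr (inSub_simple.mpr rfl)⟩

theorem ok0 (nd : P.Nondeg) : (fold0 P).OK := ⟨nd, fun i => by
  obtain ⟨y, hy, h⟩ := nd.exists_ne_one (R.neg (R.simple i))
  exact ⟨y, by rwa [orb0, VL0], rfl, h⟩⟩

variable (E : F.Emb f)
include E

theorem fpf_of_X {J : Set I} {s : Γ} (hs : f s ∈ P.H)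
    (h : ∀ r, ¬ R.InSub J r → ∀ x ∈ P.X r, Commute x (f s) → x = 1) : Fpf P f J s :=
  ⟨P.H_le_LJ J hs, fun _ hu hc => E.inj ((eq_one_of_commute E.nd (halfSpace_of_pos fun _ h => h.1)
    (closed_pos_not_inSub J) hs (fun r hr => h r hr.2) hu (hc.map f)).trans (map_one f).symm),
    fun _ hu hc => E.inj ((eq_one_of_commute E.nd (halfSpace_neg.mono fun _ h => h.1)
    (closed_neg_not_inSub J) hs (fun r hr => h r hr.2) hu (hc.map f)).trans (map_one f).symm)⟩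

theorem hT_of_triple [Finite Γ] (hf : f.range ≤ F.gen)
    (h : ∀ i, ∀ a ∈ MM F f i, ∀ b ∈ MM F f i, ∀ c ∈ MM F f i, a * b * c ∈ MM F f i) :
    P.H.comap f ≤ ⨆ i, TT F f i := by
  refine hT_of_sl2 E hf fun i => (Subgroup.closure_le _).mpr ?_
  have hM : ∀ m ∈ (E.sbn id).M i, m ∈ MM F f i := fun m ⟨⟨a, ha, c, hc, a', ha', e⟩, h1⟩ =>
    ⟨(E.over_n i).of_inv_mul_mem (by simpa using (show f ((E.n i)⁻¹ * m) ∈ P.H from h1)), a, c, a', ha, hc, ha', e⟩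
  rintro _ ⟨m, hm, m', hm', rfl⟩
  obtain ⟨h1, a, c, a', ha, hc, ha', e⟩ := hM m' hm'
  refine mem_TT (by simpa using (hM m hm).1.mul_inv_mem h1) fun z hz => ?_
  rw [← mul_assoc]
  exact h i z hz m (hM m hm) _ ⟨by simpa using h1.inv, a'⁻¹, c⁻¹, a⁻¹, by simpa using ha', by simpa using hc,
    by simpa using ha, by simp [e, mul_assoc]⟩

theorem mem_center_of_conj_mem_B (hf : f.range ≤ F.gen) {g : Γ} (h : ∀ x, f (x * g * x⁻¹) ∈ P.B) :
    g ∈ Subgroup.center Γ := by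
  obtain ⟨m, hm⟩ := E.exists_over (w0_mem_WF (F := F))
  have key : ∀ g : Γ, (∀ x, f (x * g * x⁻¹) ∈ P.B) → ∀ y, f y ∈ P.V → Commute y g := fun g h y hy => by
    have h1 : f g ∈ P.H := by
      refine E.nd.mem_H_of_mem_B_Bm (by simpa using h 1) (mem_Bm_iff.mpr ?_)
      obtain ⟨k, hk, e⟩ := hm.exists_eq
      have h2 := h m
      simp only [map_mul, map_inv, e] at h2
      have h3 := P.H_le_B (P.nW_conj_H R.w0 hk)
      simpa [mul_assoc] using mul_mem (mul_mem (inv_mem h3) h2) h3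
    have h2 : f (y * g * y⁻¹ * g⁻¹) = 1 := by
      refine E.nd.eq_one_of_mem_V_B ?_ (by simpa using mul_mem (h y) (inv_mem (P.H_le_B h1)))
      simpa [mul_assoc] using mul_mem hy (P.H_conj_US h1 (inv_mem hy))
    have h3 : y * g * y⁻¹ * g⁻¹ = 1 := E.inj (by simpa using h2)
    rwa [mul_inv_eq_one, mul_inv_eq_iff_eq_mul] at h3
  have h1 : F.gen ≤ Subgroup.centralizer {f g} := (Subgroup.closure_le _).mpr (by
    rintro y ⟨h2, i, hy | hy⟩ _ rfl
    · obtain ⟨y, rfl⟩ := E.exists_U (P.UL_le_U _ hy) h2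
      have h3 := key (m * g * m⁻¹) (fun x => by simpa [mul_assoc] using h (x * m)) (m * y * m⁻¹) (by
        simpa [V] using hm.conj_US (T := {r | ¬ R.IsPos r}) (fun r hr => by
          rw [Set.mem_ofPred_eq, isPos_w0_iff, not_not]; exact hr) (P.UL_le_U _ hy))
      simpa [mul_assoc] using ((h3.map (MulAut.conj m⁻¹)).map f).symm.eq
    · obtain ⟨y, rfl⟩ := E.exists_V (VL_le_V _ hy) h2
      exact ((key g h y (VL_le_V _ hy)).map f).symm.eq)
  exact Subgroup.mem_center_iff.mpr fun y => E.inj (by simpa using (h1 (hf ⟨y, rfl⟩) _ rfl).symm)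

theorem exists_full' (hf : f.range ≤ F.gen)
    (hconn : ∀ S : I → Bool, (∀ i j, R.C i j ≠ 0 → S i = S j) → ∀ i j, S i = S j)
    {g : Γ} (hg : g ∉ Subgroup.center Γ) : ∃ x, ∀ i, f (x * g * x⁻¹) ∉ P.PJ (F.orb i)ᶜ := by
  classical
  let S : Γ → Finset I := fun x => Finset.univ.filter fun i => f (x * g * x⁻¹) ∉ P.PJ (F.orb i)ᶜ
  have hS : ∀ x i, i ∈ S x ↔ f (x * g * x⁻¹) ∉ P.PJ (F.orb i)ᶜ := fun x i => by simp [S]
  obtain ⟨T, ⟨x, rfl⟩, hmax⟩ := Set.Finite.exists_maximal (Set.toFinite (Set.range S)) ⟨_, 1, rfl⟩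
  refine ⟨x, fun i => (hS x i).mp ?_⟩
  have hne : ∃ j, j ∈ S x := by
    by_contra hcon
    refine hg (mem_center_of_conj_mem_B E hf fun y => ?_)
    have h1 : S y ⊆ S x := hmax ⟨y, rfl⟩ fun j hj => absurd ⟨j, hj⟩ hcon
    have h2 : ∀ J : Finset I, f (y * g * y⁻¹) ∈ P.PJ (J : Set I)ᶜ := fun J => by
      induction J using Finset.induction_on with
      | empty => simpa [full] using E.full (y * g * y⁻¹)
      | insert a J _ ih =>
        have h3 : f (y * g * y⁻¹) ∈ P.PJ (F.orb a)ᶜ := by_contra fun h => hcon ⟨a, h1 ((hS y a).mpr h)⟩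
        have h4 := Subgroup.mem_inf.mpr ⟨h3, ih⟩
        rw [E.nd.PJ_inf] at h4
        refine P.PJ_mono (fun j hj => ?_) h4
        simp only [Finset.coe_insert, Set.mem_compl_iff, Set.mem_insert_iff, not_or]
        exact ⟨fun e => hj.1 (by rw [e]; exact mem_orb_self a), hj.2⟩
    simpa [PJ_empty] using h2 Finset.univ
  obtain ⟨j0, hj0⟩ := hne
  by_contra hi
  have h1 : ¬ ∀ a b, R.C a b ≠ 0 → decide (a ∈ S x) = decide (b ∈ S x) := fun h => by
    simpa [hi, hj0] using hconn _ h i j0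
  obtain ⟨a, b, hab, ha, hb⟩ : ∃ a b, R.C a b ≠ 0 ∧ a ∉ S x ∧ b ∈ S x := by
    push Not at h1
    obtain ⟨a, b, h2, h3⟩ := h1
    by_cases ha : a ∈ S x
    · refine ⟨b, a, ?_, by simpa [ha] using h3, ha⟩
      rwa [← pair_simple_simple, Ne, pair_eq_zero_comm, pair_simple_simple]
    · exact ⟨a, b, h2, ha, by simpa [ha] using h3⟩
  have horb : ∀ {c d}, d ∈ F.orb c → (d ∈ S x ↔ c ∈ S x) := fun h => by rw [hS, hS, orb_eq h]
  have h2 : S x ⊆ S (E.n a * x) := fun c hc => by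
    rw [hS] at hc ⊢
    intro h
    have h3 : f (E.n a) ∈ P.PJ (F.orb c)ᶜ := P.LJ_le_PJ _ (n_mem_LJ E (stI_compl (stI_orb c))
      fun h' => ha ((horb h').mpr ((hS x c).mpr hc)))
    exact hc (by simpa [mul_assoc] using mul_mem (mul_mem (inv_mem h3) h) h3)
  have h3 : f (E.n a * x * g * (E.n a * x)⁻¹) ∈ P.PJ (F.orb a)ᶜ :=
    by_contra fun h => ha (hmax ⟨_, rfl⟩ h2 ((hS _ a).mpr h))
  have h4 : f (x * g * x⁻¹) ∈ P.PJ (F.orb a)ᶜ := by_contra fun h => ha ((hS x a).mpr h)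
  obtain ⟨k, hk, e⟩ := (E.over_n a).exists_eq
  have hk' : ∀ J, k ∈ P.PJ J := fun J => P.B_le_PJ J (P.H_le_B hk)
  have hpos : ∀ c ∈ (F.orb a)ᶜ, R.IsPos (F.s a (R.simple c)) := fun c hc =>
    (isPos_apply_iff_of_not_inSub (s_mem_WJ a) fun h => hc (inSub_simple.mp h)).mpr (R.isPos_simple c)
  have hW := WF_le_W (s_mem (F := F) a)
  have h5 := (E.nd.dcoset_unique hW hW hpos hpos (by simpa using hpos) (by simpa using hpos) h3
    (mul_mem (mul_mem (hk' _) h4) (inv_mem (hk' _))) (by simp [e, mul_assoc])).2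
  refine (hS x b).mp hb ?_
  have h6 := P.PJ_mono (J' := (F.orb b)ᶜ) (by
    rintro c ⟨hc, j, hj, e⟩ hcb
    obtain ⟨k, hk, hkc⟩ := orb_induction (C := fun c => ∃ k ∈ F.orb a, R.C k c ≠ 0) ⟨a, mem_orb_self a, hab⟩
      (fun c ⟨k, hk, h⟩ => ⟨F.π k, (stI_orb a k).mpr hk, C_ne_zero_π h⟩) hcb
    exact s_ne_simple hk hkc hc hj e) h5
  simpa [mul_assoc] using mul_mem (mul_mem (inv_mem (hk' _)) h6) (hk' _)

/-- Gauss decomposition with prescribed semisimple part, for non-central elements. -/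
theorem gauss' (hf : f.range ≤ F.gen) (hc : ∀ h h' : Γ, f h ∈ P.H → f h' ∈ P.H → Commute h h')
    (hconn : ∀ S : I → Bool, (∀ i j, R.C i j ≠ 0 → S i = S j) → ∀ i j, S i = S j)
    (hT : P.H.comap f ≤ ⨆ i, TT F f i) {g : Γ} (hg : g ∉ Subgroup.center Γ) {h : Γ} (hh : f h ∈ P.H) :
    ∃ v u, f v ∈ P.V ∧ f u ∈ P.U ∧ IsConj g (v * h * u) := by
  obtain ⟨x, hx⟩ := exists_full' E hf hconn hg
  obtain ⟨w, hw, m, u1, u2, hm, hu1, hu2, e⟩ := E.bruhat (x * g * x⁻¹)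
  obtain ⟨J, hJ, hwJ, m', hm', h2⟩ := reach E hc hw
  have hu2' := P.Uw_le_U w hu2
  have hall : ∀ i, i ∈ J := fun i => by
    by_contra hi
    have h0 : J ⊆ (F.orb i)ᶜ := fun j hj h => hi (hJ.orb_subset hj (by rw [orb_eq h]; exact mem_orb_self i))
    refine hx i ?_
    rw [e, map_mul, map_mul]
    exact mul_mem (mul_mem (P.U_le_PJ _ hu1) (P.NJ_le_PJ _ (hm.mem_NJ (R.WJ_mono h0 hwJ)))) (P.U_le_PJ _ hu2')
  have hk : f (m'⁻¹ * m) ∈ P.H := by simpa using hm'.inv_mul_mem hm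
  have h3 : h * (m'⁻¹ * m)⁻¹ ∈ P.H.comap f := mul_mem hh (inv_mem hk)
  have h4 : (⨆ i, TT F f i) ≤ ⨆ j ∈ J, TT F f j :=
    iSup_le fun j => le_iSup₂ (f := fun j (_ : j ∈ J) => TT F f j) j (hall j)
  obtain ⟨y, v, u, hy, hv, hu, e2⟩ := h2 _ (h4 (hT h3))
  have hy' := P.Uw_le_U _ hy
  refine ⟨v, (m'⁻¹ * m)⁻¹ * u * (m'⁻¹ * m) * u2 * u1 * y⁻¹, hv, ?_, isConj_iff.mpr ⟨y * u1⁻¹ * x, ?_⟩⟩
  · rw [map_mul, map_mul, map_mul, map_inv]
    exact mul_mem (mul_mem (mul_mem (H_conj' hk hu) hu2') hu1) (inv_mem hy')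
  · calc _ = y * u1⁻¹ * (x * g * x⁻¹) * (y * u1⁻¹)⁻¹ := by simp [mul_assoc]
      _ = (y * m') * (m'⁻¹ * m) * u2 * u1 * y⁻¹ := by rw [e]; simp [mul_assoc]
      _ = _ := by rw [e2]; simp [mul_assoc]

/-- A real class whose square contains all non-central elements. -/
theorem exists_class [Finite Γ] (hf : f.range ≤ F.gen) (hc : ∀ h h' : Γ, f h ∈ P.H → f h' ∈ P.H → Commute h h')
    (hconn : ∀ S : I → Bool, (∀ i j, R.C i j ≠ 0 → S i = S j) → ∀ i j, S i = S j)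
    (hT : P.H.comap f ≤ ⨆ i, TT F f i) {J : Set I} (hJ : F.StI J) {K : Type*} [Field K] [Finite K]
    (hK : 4 ≤ Cardinal.mk K) {n : ℕ} (hn : 1 ≤ n) (ψ : SpecialLinearGroup (Fin (n + 1)) K →* Γ)
    (hL : ∀ i j, i ≠ j → ∀ t, f (ψ (xSL i j t)) ∈ P.GJ J)
    (hX : ∀ r, R.InSub J r → ∀ x ∈ P.X r, ∃ i j t, (R.IsPos r → i < j) ∧ (¬ R.IsPos r → j < i) ∧
      x = f (ψ (xSL i j t)))
    {s : Γ} (hF : Fpf P f J s) (hH : f s ∈ P.H) (hq : s ^ Nat.card K = s) {b : K} (hb : b ≠ 0) (h2 : b ^ 2 ≠ 1)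
    (hs : ∀ i j, i ≠ j → ∀ t, s * ψ (xSL i j t) * s⁻¹ =
      ψ (xSL i j ((Fin.cons b 1 : Fin (n + 1) → K) i * t * ((Fin.cons b 1 : Fin (n + 1) → K) j)⁻¹)))
    {w : Γ} (hw : w * s * w⁻¹ = s⁻¹) (hw' : ∀ i j : Fin n, i ≠ j → ∃ c : K, c ≠ 0 ∧
      w * ψ (xSL i.succ j.succ 1) * w⁻¹ = ψ (xSL j.succ i.succ c)) :
    ∃ x : Γ, IsConj x x⁻¹ ∧ ∀ g ∉ Subgroup.center Γ, P2 x g := by
  have hs' := conj_eq_cjB hb hs
  obtain ⟨U, hU, hr⟩ := exists_real hb hs' hw hw'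
  refine ⟨_, hr, fun g hg => ?_⟩
  have hL' : ∀ A, f (ψ A) ∈ P.LJ J := fun A => P.GJ_le_LJ J
    ((eq_top_of_xSL_mem (H := (P.GJ J).comap (f.comp ψ)) hL).ge (Subgroup.mem_top A))
  have hx : Fpf P f J (ψ (oneSumH U) * s) := .of_pow (map_mul f _ _ ▸ mul_mem (hL' _) hF.mem)
    ((pow_block hb hs' hq hU.1).symm ▸ hF)
  obtain ⟨v0, u0, hv0, hu0, h⟩ := gauss' E hf hc hconn hT hg (h := s * s) (by simpa using mul_mem hH hH)
  obtain ⟨v, y, hv, hy, rfl⟩ := split_V' E hJ hv0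
  obtain ⟨x, u, hx', hu, rfl⟩ := split_U' E hJ hu0
  obtain ⟨X, hX1, hX2⟩ : ∃ X, UT X.1 ∧ f x = f (ψ X) := by
    refine USub_induction (C := fun g => ∃ X, UT X.1 ∧ g = f (ψ X)) hx' (fun r hr x hx => ?_) ⟨1, .one, by simp⟩ ?_
    · obtain ⟨i, j, t, h1, -, e⟩ := hX r hr.2 x hx
      exact ⟨_, .xSL (h1 hr.1) t, e⟩
    · rintro _ _ - - ⟨A, a, rfl⟩ ⟨B, b, rfl⟩
      exact ⟨A * B, a.mul b, by simp⟩
  obtain ⟨Y, hY1, hY2⟩ : ∃ Y, UT Y.1ᵀ ∧ (f y)⁻¹ = f (ψ Y) := by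
    refine USub_induction (C := fun g => ∃ X, UT X.1ᵀ ∧ g = f (ψ X)) (inv_mem hy) (fun r hr x hx => ?_)
      ⟨1, by simpa using UT.one, by simp⟩ ?_
    · obtain ⟨i, j, t, -, h1, e⟩ := hX r hr.2 x hx
      exact ⟨_, xSL_transpose i j t ▸ .xSL (h1 hr.1) t, e⟩
    · rintro _ _ - - ⟨A, a, rfl⟩ ⟨B, b, rfl⟩
      exact ⟨A * B, by simpa using b.mul a, by simp⟩
  obtain rfl := E.inj hX2
  obtain rfl : y = (ψ Y)⁻¹ := E.inj (by rw [map_inv, ← hY2, inv_inv])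
  obtain ⟨k, k', e⟩ := block_prod hb hs' hK hn h2 hU hY1 hX1
  refine (hx.conj (hL' k)).p2 (hx.conj (hL' k')) (isConj_iff.mpr ⟨_, rfl⟩) (isConj_iff.mpr ⟨_, rfl⟩) hv hu ?_
  rw [← e]
  simpa only [mul_assoc] using h

omit E in
theorem quot_class {x : Γ} (h1 : IsConj x x⁻¹) (h2 : ∀ g ∉ Subgroup.center Γ, P2 x g) :
    ∃ c : Γ ⧸ Subgroup.center Γ, ∀ g, P2 c g := by
  refine ⟨x, fun g => ?_⟩
  obtain ⟨g, rfl⟩ := QuotientGroup.mk_surjective g
  by_cases h : g ∈ Subgroup.center Γ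
  · rw [(QuotientGroup.eq_one_iff g).mpr h]
    exact .one (by simpa using (QuotientGroup.mk' (Subgroup.center Γ)).map_isConj h1)
  · exact (h2 g h).map (QuotientGroup.mk' _)

end Cfsg.Agent.Gauss
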