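/-
Covering all conjugacy classes of a table group: enumeration of a point stabiliser and of centralisers.
-/
import Cfsg.Agent.Lib.CG.Big2

set_option autoImplicit false

namespace Cfsg.Agent.CG

theorem isPGroup_zpowers {G : Type*} [Group G] {p n : ℕ} {g : G} (hg : g ^ p ^ n = 1) :
    IsPGroup p (Subgroup.zpowers g) := by
  rintro ⟨_, m, rfl⟩
  exact ⟨n, Subtype.ext (by rw [Subgroup.coe_pow, ← zpow_natCast, zpow_comm, zpow_natCast, hg, one_zpow]; rfl)⟩

theorem exists_conj_commute {G : Type*} [Group G] [Finite G] {p : ℕ} (hp : p.Prime) {t : G} (ht : t ^ p = 1)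
    (ht1 : t ≠ 1) (h : ∀ f, Commute f t → f ^ p = 1 → ∃ k : ℕ, IsConj f (t ^ k)) {g : G} (hg : p ∣ orderOf g) :
    ∃ u : G, Commute (u * g * u⁻¹) t := by
  have := Fact.mk hp
  have key : ∀ y, Commute y t → y ^ p = 1 → y ≠ 1 → ∃ u : G, ∀ g, Commute g y → Commute (u * g * u⁻¹) t :=
    fun y h1 h2 h3 => by
      obtain ⟨k, hk⟩ := h y h1 h2
      obtain ⟨u, e⟩ := isConj_iff.mp hk
      have h4 : t ∈ Subgroup.zpowers (t ^ k) := mem_zpowers_pow_iff.mpr (by
        rw [orderOf_eq_prime ht ht1]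
        refine ((Nat.Prime.coprime_iff_not_dvd hp).mpr fun hd => h3 ?_).symm
        rwa [← orderOf_eq_prime ht ht1, orderOf_dvd_iff_pow_eq_one, ← e, conj_eq_one_iff] at hd)
      obtain ⟨n, hn⟩ := h4
      refine ⟨u, fun g hg => hn ▸ Commute.zpow_right ?_ n⟩
      simpa [← e] using hg.map (MulAut.conj u)
  have hz : ∀ y : G, y ^ p = 1 → ∃ P : Sylow p G, y ∈ P := fun y hy =>
    (isPGroup_zpowers (n := 1) (by rwa [pow_one])).exists_le_sylow.imp fun P hP => hP (Subgroup.mem_zpowers y)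
  obtain ⟨P, hP⟩ := hz t ht
  have : Nontrivial P := ⟨⟨t, hP⟩, 1, fun e => ht1 (congrArg Subtype.val e)⟩
  have := P.2.center_nontrivial
  obtain ⟨z, hz1⟩ := exists_prime_orderOf_dvd_card' p (((P.2.to_subgroup (Subgroup.center P)).card_eq_or_dvd).resolve_left
    Finite.one_lt_card.ne')
  have hz2 : ∀ g ∈ P, Commute g z.1.1 := fun g hg => congrArg Subtype.val (Subgroup.mem_center_iff.mp z.2 ⟨g, hg⟩)
  have hz3 : orderOf z.1.1 = p := by rw [Subgroup.orderOf_coe, Subgroup.orderOf_coe, hz1]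
  have h0 : ∀ {y : G}, orderOf y = p → y ^ p = 1 := fun e => e ▸ pow_orderOf_eq_one _
  obtain ⟨u, hu⟩ := key _ (hz2 t hP).symm (h0 hz3) fun e => hp.one_lt.ne (by rw [← hz3, e, orderOf_one])
  have h1 : orderOf (g ^ (orderOf g / p)) = p := orderOf_pow_orderOf_div (orderOf_pos g).ne' hg
  obtain ⟨Q, hQ⟩ := hz _ (h0 h1)
  obtain ⟨v, rfl⟩ := MulAction.exists_smul_eq G P Q
  have h2 : orderOf (MulAut.conj (u * v⁻¹) (g ^ (orderOf g / p))) = p := by rw [MulEquiv.orderOf_eq, h1]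
  obtain ⟨w, hw⟩ := key (MulAut.conj (u * v⁻¹) (g ^ (orderOf g / p)))
    (by simpa [mul_assoc, -smul_pow'] using hu _ (hz2 _ (Subgroup.mem_pointwise_smul_iff_inv_smul_mem.mp hQ))) (h0 h2)
    fun e => hp.one_lt.ne (by rw [← h2, e, orderOf_one])
  exact ⟨w * (u * v⁻¹), by simpa [mul_assoc] using hw _ (((Commute.refl g).pow_right _).map (MulAut.conj (u * v⁻¹)))⟩

/-- The letters from `k` on stand for words. -/
noncomputable def appW (app : ℕ → ℕ → ℕ) (k : ℕ) (Ws : List (List ℕ)) (a x : ℕ) : ℕ :=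
  Bool.rec (motive := fun _ => ℕ) (evp app (nth Ws [] (Nat.sub a k)) x) (app a x) (blt a k)

/-- A level given by short lists. -/
noncomputable def lvl (c p l i : List ℕ) (d : ℕ) : Lvl :=
  ⟨nth c 0 0, l, c.length, nth c 0, nth p 0, nth l 0, nth i 0, fun x => c.idxOf x, d⟩

/-- Run through all elements described by a chain. -/
noncomputable def enumS (app : ℕ → ℕ → ℕ) (L : List Lvl) (k : ℕ → (ℕ → ℕ) → Bool) (idx : ℕ) (f : ℕ → ℕ) : Bool :=
  List.rec (motive := fun _ => ℕ → (ℕ → ℕ) → Bool) k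
    (fun l _ ih idx f => allRange (fun i => walkF app (maskOf l.S) l.par l.ilab l.dep i (fun x => x) fun u =>
      band (Nat.beq (u (l.code i)) l.b) (force (Nat.add (Nat.mul idx l.N) i) fun j => ih j fun x => u (f x))) 0 l.N)
    L idx f

/-- The values of a function on a list. -/
noncomputable def mapL (f : ℕ → ℕ) (B : List ℕ) : List ℕ :=
  List.rec (motive := fun _ => List ℕ) [] (fun b _ ih => f b :: ih) B

/-- The number `c` encodes a class `j` and a word conjugating `f` to a function with the values `I j` on `B`. -/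
noncomputable def cjChk (app : ℕ → ℕ → ℕ) (inv : ℕ → ℕ) (dep : ℕ) (B : List ℕ) (I : ℕ → List ℕ) (c : ℕ)
    (f : ℕ → ℕ) : Bool :=
  conjF app inv 6 63 dep (Nat.shiftRight c 5) f fun f' => eqL (mapL f' B) (I (Nat.land c 31))

variable {G X : Type*} [Group G] [MulAction G X] {A : Act G X}

variable (A) in
/-- The action with words as further letters. -/
noncomputable def Act.ext (k : ℕ) (Ws : List (List ℕ)) : Act G X where
  gen a := Bool.rec (motive := fun _ => G) (ev A.gen (nth Ws [] (Nat.sub a k))) (A.gen a) (blt a k)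
  app := appW A.app k Ws
  ok := A.ok
  pt := A.pt
  ok_app a x hx := by unfold appW; cases blt a k; exacts [A.ok_evp _ hx, A.ok_app a x hx]
  smul_pt a x hx := by unfold appW; cases blt a k; exacts [A.ev_smul _ hx, A.smul_pt a x hx]
  inj := A.inj

theorem enumS_sound {K : Subgroup G} {k : ℕ → (ℕ → ℕ) → Bool} {g : G} :
    ∀ (L : List Lvl) (fixed : List ℕ) (idx : ℕ) (f : ℕ → ℕ) (W : G), ChainOK A L fixed → Exact A K L fixed →
      (∀ l ∈ L, ∀ a ∈ l.S, A.gen a ∈ K) → A.Rep W f → W * g ∈ K ⊓ A.fix fixed →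
      enumS A.app L k idx f = true → ∃ j f', A.Rep g⁻¹ f' ∧ k j f' = true
  | [], fixed, idx, f, W, _, hE, _, hf, h1, h => by
    rw [show K ⊓ A.fix fixed = ⊥ from hE, Subgroup.mem_bot] at h1
    exact ⟨idx, f, by rwa [← eq_inv_of_mul_eq_one_left h1], h⟩
  | l :: L, fixed, idx, f, W, hC, hE, hK, hf, h1, h => by
    obtain ⟨i, hi, hi2⟩ := hE.1 _ h1
    have h : allRange (fun i => walkF A.app (maskOf l.S) l.par l.ilab l.dep i (fun x => x) fun u =>
      band (Nat.beq (u (l.code i)) l.b) (force (Nat.add (Nat.mul idx l.N) i) fun j =>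
        enumS A.app L k j fun x => u (f x))) 0 l.N = true := h
    obtain ⟨U, hU, u, r1, r2⟩ := walkF_sound _ _ _ 1 A.rep_id ((allRange_iff _ _ _).1 h i (Nat.zero_le _) (by omega))
    rw [band_eq, beq_iff, force_eq, mul_one] at *
    have hU' := mul_mem (cl_le _ (fun a ha => ⟨hK l (by simp) a ha, hC.1.fixes a ha⟩ :
      ∀ a ∈ l.S, A.gen a ∈ K ⊓ A.fix fixed) hU) h1
    refine enumS_sound L (l.b :: fixed) _ _ (U * W) hC.2 hE.2 (fun l' hl' => hK l' (by simp [hl'])) (r1.comp hf)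
      ⟨mul_assoc U W g ▸ hU'.1, A.mem_fix_cons.mpr ⟨?_, mul_assoc U W g ▸ hU'.2⟩⟩ r2.2
    rw [mul_assoc, mul_smul, hi2, (r1 _ (hC.1.ok_code i hi)).2, r2.1]

theorem mapL_congr {f g : ℕ → ℕ} : ∀ {B : List ℕ}, mapL f B = mapL g B → ∀ b ∈ B, f b = g b
  | [], _ => by simp
  | _ :: _, h => List.forall_mem_cons.mpr ⟨(List.cons.inj h).1, mapL_congr (List.cons.inj h).2⟩

theorem cjChk_sound {inv : ℕ → ℕ} (hinv : ∀ a, A.gen (inv a) = (A.gen a)⁻¹) {B : List ℕ} (hB : A.IsBase B)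
    {I : ℕ → List ℕ} {Q : G → Prop} (hI : ∀ j, ∃ r f, Q r ∧ A.Rep r f ∧ mapL f B = I j) {dep c : ℕ} {g : G} {f : ℕ → ℕ}
    (hf : A.Rep g f) (h : cjChk A.app inv dep B I c f = true) : ∃ r, Q r ∧ IsConj g r := by
  rw [cjChk, conjF_eq, eqL_iff] at h
  obtain ⟨u, hu⟩ := conjP_rep hinv 6 63 dep (Nat.shiftRight c 5) f g hf
  obtain ⟨r, f', h1, h2, h3⟩ := hI (Nat.land c 31)
  exact ⟨r, h1, isConj_iff.mpr ⟨u, hu.eq_of_base hB h2 (mapL_congr (h.trans h3.symm))⟩⟩

theorem ChainOK.exists_conj_fix [Finite G] [Finite X] {l : Lvl} {L : List Lvl} (hC : ChainOK A (l :: L) [])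
    (hN : Nat.card X = l.N) {p : ℕ} (hp : p.Prime) (h : ¬ p ∣ l.N) {g : G} {n : ℕ} (hg : g ^ p ^ n = 1) :
    ∃ u : G, u * g * u⁻¹ ∈ A.fix [l.b] := by
  have := Fact.mk hp
  obtain ⟨f, hf, -⟩ := hC.1.orbit_inj (K := ⊤) (fun _ _ => Subgroup.mem_top _)
  have h1 : MulAction.orbit ↥(⊤ ⊓ A.fix []) (A.pt l.b) = Set.univ :=
    Set.eq_of_subset_of_ncard_le (Set.subset_univ _) (by simpa [hN] using Nat.card_le_card_of_injective f hf)
  obtain ⟨x, hx⟩ := (isPGroup_zpowers hg).nonempty_fixed_point_of_prime_not_dvd_card X (hN ▸ h)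
  obtain ⟨u, hu⟩ : x ∈ MulAction.orbit ↥(⊤ ⊓ A.fix []) (A.pt l.b) := h1 ▸ Set.mem_univ _
  refine ⟨u⁻¹, A.mem_fix.mpr (List.forall_mem_singleton.mpr ?_)⟩
  have h2 : g • x = x := hx ⟨g, Subgroup.mem_zpowers g⟩
  rw [inv_inv, mul_smul, mul_smul, show (u : G) • A.pt l.b = x from hu, h2, inv_smul_eq_iff]
  exact hu.symm

/-- The check of the centraliser `F` of the word `t` of order `p`. -/
noncomputable def centChk (app app' : ℕ → ℕ → ℕ) (inv : ℕ → ℕ) (B : List ℕ) (I : ℕ → List ℕ) (l : Lvl) (L : List Lvl)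
    (t : List ℕ) (p : ℕ) (F : List (List ℕ × ℕ × ℕ)) : Bool :=
  band (eqL (trSources app' (diagQ [[], t, t ++ t]) l.b) (bases (l :: L)))
    (band (trChk app' l L B (diagQ [[], t, t ++ t]) (diagQ [t]) (F.map Prod.fst) 0 l.N)
      (band (band (eqW app' B (powL p t) []) (bnot (eqW app' B t [])))
        (allL (fun φ => band (cjChk app inv 5 B I φ.2.1 (evp app' φ.1)) (bor (bnot (eqW app' B (powL p φ.1) []))
          (cjChk app inv 9 B (fun k => mapL (evp app' (powL k t)) B) φ.2.2 (evp app' φ.1)))) F)))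

theorem centChk_sound [Finite G] {inv : ℕ → ℕ} (hinv : ∀ a, A.gen (inv a) = (A.gen a)⁻¹) {B : List ℕ}
    (hB : A.IsBase B) {I : ℕ → List ℕ} {Q : G → Prop} (hI : ∀ j, ∃ r f, Q r ∧ A.Rep r f ∧ mapL f B = I j) {k : ℕ}
    {Ws : List (List ℕ)} {l : Lvl} {L : List Lvl} (hC : ChainOK (A.ext k Ws) (l :: L) [])
    (hN : Nat.card G ≤ prodN (l :: L)) {t : List ℕ} {p : ℕ} (hp : p.Prime) {F : List (List ℕ × ℕ × ℕ)}
    (h : centChk A.app (appW A.app k Ws) inv B I l L t p F = true) {g : G} (hg : p ∣ orderOf g) :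
    ∃ r, Q r ∧ IsConj g r := by
  rw [centChk, band_eq, band_eq, band_eq, band_eq, bnot_eq, allL_iff] at h
  obtain ⟨h1, h2, ⟨h3, h4⟩, h5⟩ := h
  have hB' : (A.ext k Ws).IsBase B := hB
  have key : ∀ f, Commute f (ev (A.ext k Ws).gen t) → ∃ φ ∈ F, f = ev (A.ext k Ws).gen φ.1 := fun f hf => by
    obtain ⟨_, hφ, e⟩ := transporter hC hN hB' h1 h2 f fun q hq => by
      have : q.1 ∈ [[], t, t ++ t] ∧ q.2 = q.1 := hq.elim mem_diagQ fun hq => (mem_diagQ hq).imp_left (by simp +contextual)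
      rw [this.2]
      have := this.1
      simp only [List.mem_cons, List.not_mem_nil, or_false] at this
      rcases this with e | e | e <;> rw [e]
      exacts [by simp, hf, by simpa using (hf.mul_right hf).eq]
    obtain ⟨φ, h6, rfl⟩ := List.mem_map.mp hφ
    exact ⟨φ, h6, e⟩
  obtain ⟨u, hu⟩ := exists_conj_commute hp (by simpa [ev_powL] using hB'.ev_eq h3)
    (Act.ev_ne_of_eqW (A := A.ext k Ws) hB.1 h4) (fun f hf e => by
      obtain ⟨φ, hφ, rfl⟩ := key f hf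
      rcases (bor_eq _ _).1 ((band_eq _ _).1 (h5 φ hφ)).2 with h6 | h6
      · exact absurd (by simpa [ev_powL] using e) (Act.ev_ne_of_eqW (A := A.ext k Ws) hB.1 ((bnot_eq _).1 h6))
      obtain ⟨_, ⟨n, rfl⟩, h7⟩ := cjChk_sound hinv hB (Q := fun r => ∃ n : ℕ, r = ev (A.ext k Ws).gen t ^ n)
        (fun j => ⟨_, _, ⟨j, ev_powL _ j t⟩, (A.ext k Ws).rep_ev _, rfl⟩) ((A.ext k Ws).rep_ev _) h6
      exact ⟨n, h7⟩) hg
  obtain ⟨φ, hφ, e⟩ := key _ hu
  obtain ⟨r, h6, h7⟩ := cjChk_sound hinv hB hI ((A.ext k Ws).rep_ev _) ((band_eq _ _).1 (h5 φ hφ)).1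
  exact ⟨r, h6, (isConj_iff.mpr ⟨u, e⟩).trans h7⟩

end Cfsg.Agent.CG
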