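/-
Every non-trivial element of the Tits group is a product of two conjugates of an element of order 13.
-/
import Cfsg.Agent.Lib.Gauss.TitsSqD
import Cfsg.Agent.Lib.Gauss.Levi

set_option autoImplicit false
set_option maxRecDepth 100000

namespace Cfsg.Agent.CG.Tits.Sq

theorem aux {G X : Type*} [Group G] [MulAction G X] {A : Act G X} {inv : ℕ → ℕ}
    (hinv : ∀ a, A.gen (inv a) = (A.gen a)⁻¹) {x : G} {f : ℕ → ℕ} (hf : A.Rep x f) {c : ℕ} {B l : List ℕ}
    (h : (conjF A.app inv 6 63 3 c f fun f' => eqL (mapL (fun y => f (f' y)) B) l) = true) :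
    ∃ r f, (r = 1 ∨ Gauss.P2 x r) ∧ A.Rep r f ∧ mapL f B = l := by
  rw [conjF_eq, eqL_iff] at h
  obtain ⟨u, hu⟩ := conjP_rep hinv 6 63 3 c _ _ hf
  exact ⟨_, _, Or.inr ⟨1, u, by simp⟩, hf.comp hu, h⟩

theorem rep_ext {G X : Type*} [Group G] [MulAction G X] {A : Act G X} {k : ℕ} {Ws : List (List ℕ)} {g : G}
    {f : ℕ → ℕ} (h : (A.ext k Ws).Rep g f) : A.Rep g f := h

theorem hI (j : ℕ) : ∃ r f, (r = 1 ∨ Gauss.P2 (ev act'.gen w13) r) ∧ act.Rep r f ∧ mapL f bb = im j := by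
  rcases lt_or_ge j 21 with h | h
  · exact aux hinv (rep_ext (act'.rep_ev w13)) ((allRange_iff _ _ _).1 k0 j (Nat.zero_le _) (by omega))
  · exact ⟨1, _, Or.inl rfl, act.rep_id, by rw [im, nth_triv _ _ h]; rfl⟩

theorem exists_class : ∃ x : PG, Odd (orderOf x) ∧ ∀ g, g ≠ 1 → Gauss.P2 x g := by
  refine ⟨ev act'.gen w13, Odd.of_dvd_nat (by decide : Odd 13) (orderOf_dvd_of_pow_eq_one (by
    simpa [ev_powL] using Act.IsBase.ev_eq (A := act') bse (v := powL 13 w13) (w := []) (by decide +kernel))),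
    fun g hg => ?_⟩
  suffices ∃ r, (r = 1 ∨ Gauss.P2 (ev act'.gen w13) r) ∧ IsConj g r by
    obtain ⟨r, rfl | ⟨u, v, rfl⟩, h2⟩ := this
    exacts [absurd (isConj_one_left.mp h2) hg, .of_isConj (isConj_iff.mpr ⟨u, rfl⟩) (isConj_iff.mpr ⟨v, rfl⟩) h2]
  by_cases h3 : 3 ∣ orderOf g
  · exact centChk_sound hinv bse hI (ch (by decide +kernel) (by decide +kernel) (by decide +kernel))
      (card.le.trans (by decide +kernel)) (by decide) k3 h3
  by_cases h5 : 5 ∣ orderOf g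
  · exact centChk_sound hinv bse hI (ch (by decide +kernel) (by decide +kernel) (by decide +kernel))
      (card.le.trans (by decide +kernel)) (by decide) k5 h5
  by_cases h13 : 13 ∣ orderOf g
  · exact centChk_sound hinv bse hI ch13 le13 (by decide) k13 h13
  have h : orderOf g ∣ 2 ^ 11 * 3 ^ 3 * 5 ^ 2 * 13 := (orderOf_dvd_natCard g).trans card.dvd
  have c : ∀ {p}, p.Prime → ¬ p ∣ orderOf g → (orderOf g).Coprime p := fun hp h =>
    ((Nat.Prime.coprime_iff_not_dvd hp).mpr h).symm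
  obtain ⟨u, hu⟩ := ch13.exists_conj_fix (by simp [mc0]) Nat.prime_two (by decide) (orderOf_dvd_iff_pow_eq_one.mp
    (((c (by decide) h3).pow_right 3).dvd_of_dvd_mul_right (((c (by decide) h5).pow_right 2).dvd_of_dvd_mul_right
      ((c (by decide) h13).dvd_of_dvd_mul_right h))))
  obtain ⟨j, f, h1, h2⟩ := enumS_sound (g := (u * g * u⁻¹)⁻¹) _ _ _ _ 1 ch13.2 (ch13.exact_top le13).2
    (fun _ _ _ _ => Subgroup.mem_top _) act'.rep_id ⟨Subgroup.mem_top _, by simpa using inv_mem hu⟩ k2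
  obtain ⟨r, h4, h6⟩ := cjChk_sound hinv bse hI (rep_ext h1) ((force_eq _ _).symm.trans h2)
  exact ⟨r, h4, (isConj_iff.mpr ⟨u, (inv_inv _).symm⟩).trans h6⟩

end Cfsg.Agent.CG.Tits.Sq
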